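import Cfsg.Agent.AltCent.Fixed
import Cfsg.Agent.AltCent.FiveT.Data

/-! # FiveT: coset representatives (generated certificate data) -/

set_option autoImplicit false
set_option maxRecDepth 100000
set_option maxHeartbeats 4000000

namespace CfsgLib.AltCent.FiveT

def rWords0 : List (List ℕ) := [[], [528], [1893], [288, 1073], [288], [528, 1893], [1653, 2438], [1653], [288, 1073, 1893], [288, 1893], [528, 1653, 2438], [528, 1653], [288, 1073, 1653, 2438], [288, 1073, 1653], [288, 1653, 2438], [288, 1653]]

def rWords : List (List ℕ) := rWords0

theorem reps_ok : (Nat.beq rWords.length cR && repsOK 10 tR 0 rWords) = true := by decide +kernel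

end CfsgLib.AltCent.FiveT
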