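import Cfsg.Agent.AltCent.Fixed
import Cfsg.Agent.AltCent.FiveT.Data

/-! # FiveT: terms 0 (generated certificate data) -/

set_option autoImplicit false
set_option maxRecDepth 100000
set_option maxHeartbeats 4000000

namespace CfsgLib.AltCent.FiveT

def terms0 : List Term :=
  [⟨[561, 834, 1685, 2166], 436066194480, 0, 3, [(12, 72, 3), (3, 64, 0), (14, 97, 1), (11, 68, 2), (2, 85, 0), (15, 63, 0)]⟩,
   ⟨[800, 1925], 649991553810, 0, 4, [(11, 44, 0), (12, 49, 3), (0, 90, 0), (14, 62, 1), (8, 96, 0), (15, 23, 2)]⟩,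
   ⟨[560, 2198], 577561174035, 0, 3, [(13, 27, 2), (11, 97, 0), (14, 77, 3), (4, 17, 0), (8, 62, 1), (6, 55, 0)]⟩,
   ⟨[304, 801, 1685, 1926], 443867726115, 0, 3, [(8, 28, 1), (15, 29, 2), (12, 80, 2), (7, 91, 0), (14, 87, 1), (1, 55, 0)]⟩,
   ⟨[304, 2437, 2422], 452439839235, 0, 1, [(14, 32, 1), (2, 52, 0), (13, 83, 1), (1, 88, 0), (13, 53, 2), (14, 97, 2)]⟩,
   ⟨[], 654820258320, 1, 1, [(0, 0, 0), (3, 0, 0), (4, 3, 1), (1, 0, 0), (3, 30, 1), (4, 0, 0)]⟩,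
   ⟨[], 654820258320, 2, 1, [(0, 0, 0), (2, 0, 0), (7, 0, 0), (6, 34, 2), (7, 4, 2), (6, 0, 0)]⟩]

theorem terms0_ok : termsOK 10 bases tR cR T B terms0 = true := by decide +kernel

end CfsgLib.AltCent.FiveT
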